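import Cfsg.Agent.SylowGLTwo.Sylow

/-!
Monomial Sylow 2-subgroups of linear groups of degree a power of two over fields of order `1 mod 4`.
-/

set_option autoImplicit false

open scoped commutatorElement

namespace CfsgLib.SylowGLTwo

open Equiv Matrix

variable {F : Type*} [Field F] {κ : Type} [Fintype κ] [DecidableEq κ]

/-- Diagonal monomial matrices. -/
noncomputable def diagEmb : (κ → Fˣ) →* GL (Fin 1 × κ) F :=
  bd.comp (MonoidHom.compLeft (Matrix.GeneralLinearGroup.scalar (Fin 1)) κ)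

theorem pm_conj_diagEmb (σ : Perm κ) (u : κ → Fˣ) :
    pm σ * diagEmb u * (pm σ : GL (Fin 1 × κ) F)⁻¹ = diagEmb (fun k => u (σ⁻¹ k)) :=
  pm_conj_bd σ _

theorem det_diagEmb (u : κ → Fˣ) :
    Matrix.GeneralLinearGroup.det (diagEmb u : GL (Fin 1 × κ) F) = ∏ k, u k := by
  refine Units.ext ?_
  rw [Units.coe_prod]
  show (Units.val (bd fun k => Matrix.GeneralLinearGroup.scalar (Fin 1) (u k))).det = _
  rw [det_bd]
  refine Finset.prod_congr rfl fun k _ => ?_
  simp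

theorem det_pm_one (σ : Perm κ) :
    Matrix.GeneralLinearGroup.det (pm σ : GL (Fin 1 × κ) F) = 1 ∨
      Matrix.GeneralLinearGroup.det (pm σ : GL (Fin 1 × κ) F) = -1 := by
  have h : (Units.val (pm σ : GL (Fin 1 × κ) F)).det = ((Perm.sign σ : ℤ) : F) := by
    rw [det_pm, Fintype.card_fin, pow_one]
  rcases Int.units_eq_one_or (Perm.sign σ) with e | e
  · exact Or.inl (Units.ext (h.trans (by simp [e])))
  · exact Or.inr (Units.ext (h.trans (by simp [e])))

/-- The diagonal element `a` at `i`, `a⁻¹` at `l`. -/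
def pairVec (a : Fˣ) (i l : κ) : κ → Fˣ := Pi.mulSingle i a * Pi.mulSingle l a⁻¹

theorem pairVec_perm (a : Fˣ) (σ : Perm κ) (i l : κ) :
    (fun k => pairVec a i l (σ⁻¹ k)) = pairVec a (σ i) (σ l) := by
  funext k
  simp [pairVec, Pi.mulSingle_apply, Equiv.symm_apply_eq]

theorem pairVec_swap (a : Fˣ) (i l : κ) : pairVec a l i = (pairVec a i l)⁻¹ := by
  funext k
  simp [pairVec, Pi.mulSingle_inv, mul_comm]

theorem prod_pairVec (a : Fˣ) (i l : κ) : ∏ k, pairVec a i l k = 1 := by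
  simp [pairVec, Finset.prod_mul_distrib, Finset.prod_pi_mulSingle']

/-- The diagonal vectors with entries in `⟨a⟩`. -/
def vecs (a : Fˣ) : Subgroup (κ → Fˣ) := Subgroup.pi Set.univ fun _ => Subgroup.zpowers a

theorem mem_wreath_one [Finite F] {a : Fˣ} {T : Subgroup (Perm κ)} {w : GL (Fin 1 × κ) F} :
    w ∈ wreath ((Subgroup.zpowers a).map (Matrix.GeneralLinearGroup.scalar (Fin 1))) T ↔
      ∃ (u : κ → Fˣ) (σ : Perm κ), u ∈ vecs a ∧ σ ∈ T ∧ diagEmb u * pm σ = w := by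
  rw [mem_wreath]
  constructor
  · rintro ⟨g, σ, hg, hσ, rfl⟩
    choose u hu hgu using fun k => Subgroup.mem_map.1 (hg k)
    refine ⟨u, σ, fun k _ => hu k, hσ, ?_⟩
    congr 1
    exact congrArg bd (funext hgu)
  · rintro ⟨u, σ, hu, hσ, rfl⟩
    exact ⟨_, σ, fun k => ⟨u k, hu k trivial, rfl⟩, hσ, rfl⟩

theorem sqInDerived_monomial [Finite F] {a : Fˣ} {k : ℕ} (hk : 2 ≤ k) (ha : orderOf a = 2 ^ k)
    (T : Sylow 2 (Perm κ)) [Nonempty κ]
    (htrans : ∀ i l : κ, i ≠ l → ∃ σ ∈ (T : Subgroup (Perm κ)), σ i = l ∧ σ l = i) :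
    SqInDerived (wreath ((Subgroup.zpowers a).map (Matrix.GeneralLinearGroup.scalar (Fin 1)))
      (T : Subgroup (Perm κ)) ⊓
      (Matrix.GeneralLinearGroup.det : GL (Fin 1 × κ) F →* Fˣ).ker : Subgroup (GL (Fin 1 × κ) F)) := by
  classical
  haveI : Fact (Nat.Prime 2) := ⟨Nat.prime_two⟩
  set W := wreath ((Subgroup.zpowers a).map (Matrix.GeneralLinearGroup.scalar (Fin 1)))
      (T : Subgroup (Perm κ)) with hW
  set D := (Matrix.GeneralLinearGroup.det : GL (Fin 1 × κ) F →* Fˣ).ker with hD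
  obtain ⟨i₀⟩ := ‹Nonempty κ›
  have hnegone : (-1 : Fˣ) = a ^ 2 ^ (k - 1) := by
    have h2 : (a ^ 2 ^ (k - 1)) * (a ^ 2 ^ (k - 1)) = 1 := by
      rw [← pow_add, ← two_mul, ← pow_succ', Nat.sub_add_cancel (by omega), ← ha, pow_orderOf_eq_one]
    have hne : a ^ 2 ^ (k - 1) ≠ 1 := fun h => by
      have h3 := orderOf_dvd_of_pow_eq_one h
      rw [ha, Nat.pow_dvd_pow_iff_le_right (by norm_num)] at h3
      omega
    rcases mul_self_eq_one_iff.1 (show ((a ^ 2 ^ (k - 1) : Fˣ) : F) * _ = 1 by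
        rw [← Units.val_mul, h2, Units.val_one]) with h | h
    · exact absurd (Units.val_eq_one.1 h) hne
    · exact (Units.ext h).symm
  have hneg : (-1 : Fˣ) ∈ Subgroup.zpowers a := hnegone ▸ pow_mem (Subgroup.mem_zpowers a) _
  have hsingle : ∀ i (b : Fˣ), b ∈ Subgroup.zpowers a → (Pi.mulSingle i b : κ → Fˣ) ∈ vecs a := by
    intro i b hb l _
    rcases eq_or_ne l i with rfl | h
    · simpa using hb
    · simp [h, one_mem]
  have hpairW : ∀ i l, diagEmb (pairVec a i l) ∈ W ⊓ D := by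
    intro i l
    refine ⟨?_, ?_⟩
    · rw [hW]
      refine mem_wreath_one.2 ⟨pairVec a i l, 1, ?_, one_mem _, by rw [map_one, mul_one]⟩
      exact mul_mem (hsingle i a (Subgroup.mem_zpowers a))
        (hsingle l a⁻¹ (inv_mem (Subgroup.mem_zpowers a)))
    · show diagEmb (pairVec a i l) ∈ D
      rw [hD, MonoidHom.mem_ker, det_diagEmb, prod_pairVec]
  let c : Perm κ → (κ → Fˣ) := fun σ =>
    if Matrix.GeneralLinearGroup.det (pm σ : GL (Fin 1 × κ) F) = 1 then 1 else Pi.mulSingle i₀ (-1)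
  have hc : ∀ σ, c σ ∈ vecs a := by
    intro σ
    simp only [c]
    split_ifs
    · exact one_mem _
    · exact hsingle i₀ _ hneg
  have hL : ∀ σ ∈ (T : Subgroup (Perm κ)), diagEmb (c σ) * pm σ ∈ W ⊓ D := by
    intro σ hσ
    refine ⟨hW ▸ mem_wreath_one.2 ⟨c σ, σ, hc σ, hσ, rfl⟩, ?_⟩
    show diagEmb (c σ) * pm σ ∈ D
    rw [hD, MonoidHom.mem_ker, map_mul, det_diagEmb]
    simp only [c]
    split_ifs with h
    · simp [h]
    · rw [(det_pm_one σ).resolve_left h, Finset.prod_pi_mulSingle']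
      simp
  have hconj : ∀ σ i l, diagEmb (c σ) * pm σ * diagEmb (pairVec a i l) *
      (diagEmb (c σ) * pm σ : GL (Fin 1 × κ) F)⁻¹ = diagEmb (pairVec a (σ i) (σ l)) := by
    intro σ i l
    have e : diagEmb (c σ) * pm σ * diagEmb (pairVec a i l) * (diagEmb (c σ) * pm σ : GL (Fin 1 × κ) F)⁻¹ =
        diagEmb (c σ) * (pm σ * diagEmb (pairVec a i l) * (pm σ)⁻¹) * (diagEmb (c σ))⁻¹ := by group
    rw [e, pm_conj_diagEmb, pairVec_perm, ← map_inv, ← map_mul, ← map_mul, mul_comm (c σ),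
      mul_inv_cancel_right]
  have hpair_sq : ∀ i l, diagEmb (pairVec a i l) ^ 2 ∈ ⁅W ⊓ D, W ⊓ D⁆ := by
    intro i l
    rcases eq_or_ne i l with rfl | hil
    · have : pairVec a i i = 1 := by funext m; simp [pairVec, Pi.mulSingle_inv]
      rw [this, map_one, one_pow]; exact one_mem _
    obtain ⟨σ, hσ, h1, h2⟩ := htrans i l hil
    have h3 := commutator_conj_mem (hL σ hσ) (hpairW i l)
    rw [hconj, h1, h2, pairVec_swap, map_inv, ← _root_.mul_inv_rev, ← pow_two] at h3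
    exact inv_mem_iff.1 h3
  let X : Set (GL (Fin 1 × κ) F) := {g | (∃ i l, g = diagEmb (pairVec a i l)) ∨
    ∃ τ ∈ (T : Subgroup (Perm κ)), τ ^ 2 = 1 ∧ g = diagEmb (c τ) * pm τ}
  refine sq_mem_commutator (X := X) ?_ ?_ ?_
  · rintro g (⟨i, l, rfl⟩ | ⟨τ, hτ, -, rfl⟩)
    · exact hpairW i l
    · exact hL τ hτ
  · have hproj : ∀ σ ∈ (T : Subgroup (Perm κ)), ∃ u ∈ vecs a,
        diagEmb u * pm σ ∈ Subgroup.closure X := by
      intro σ hσ
      refine Subgroup.closure_induction (p := fun σ _ => ∃ u ∈ vecs a,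
        diagEmb u * (pm σ : GL (Fin 1 × κ) F) ∈ Subgroup.closure X) ?_ ?_ ?_ ?_
        ((CfsgLib.SymSylow.Mono.gen_all 2 T).1 hσ)
      · rintro τ ⟨hτ, hτ2⟩
        exact ⟨c τ, hc τ, Subgroup.subset_closure (Or.inr ⟨τ, hτ, hτ2, rfl⟩)⟩
      · exact ⟨1, one_mem _, by simp [one_mem]⟩
      · rintro σ τ - - ⟨u, hu, hu'⟩ ⟨v, hv, hv'⟩
        refine ⟨u * fun k => v (σ⁻¹ k), mul_mem hu (fun k _ => hv _ trivial), ?_⟩
        have h := mul_mem hu' hv'
        rwa [show diagEmb u * pm σ * (diagEmb v * pm τ) =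
          diagEmb u * (pm σ * diagEmb v * (pm σ)⁻¹) * (pm σ * pm τ) by group, pm_conj_diagEmb,
          ← map_mul, ← map_mul] at h
      · rintro σ - ⟨u, hu, hu'⟩
        refine ⟨fun k => u⁻¹ (σ k), fun k _ => (Subgroup.zpowers a).inv_mem (hu _ trivial), ?_⟩
        have h := inv_mem hu'
        rwa [show (diagEmb u * pm σ : GL (Fin 1 × κ) F)⁻¹ =
          ((pm σ)⁻¹ * (diagEmb u)⁻¹ * ((pm σ)⁻¹)⁻¹) * (pm σ)⁻¹ by group, ← map_inv, ← map_inv,
          pm_conj_diagEmb, inv_inv] at h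
    rintro w ⟨hw, hwd⟩
    obtain ⟨u, σ, hu, hσ, rfl⟩ := mem_wreath_one.1 (hW ▸ hw)
    obtain ⟨v, hv, hz⟩ := hproj σ hσ
    have hXD : Subgroup.closure X ≤ D := by
      rw [Subgroup.closure_le]
      rintro g (⟨i, l, rfl⟩ | ⟨τ, hτ, -, rfl⟩)
      · exact (hpairW i l).2
      · exact (hL τ hτ).2
    have hdiff : (diagEmb (u * v⁻¹) : GL (Fin 1 × κ) F) ∈ D := by
      have := mul_mem (show diagEmb u * pm σ ∈ D from hwd) (inv_mem (hXD hz))
      rwa [show diagEmb u * pm σ * (diagEmb v * pm σ : GL (Fin 1 × κ) F)⁻¹ = diagEmb u * (diagEmb v)⁻¹ by group,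
        ← map_inv, ← map_mul] at this
    rw [hD, MonoidHom.mem_ker, det_diagEmb] at hdiff
    have hmem : (diagEmb (u * v⁻¹) : GL (Fin 1 × κ) F) ∈ Subgroup.closure X := by
      have hsum : u * v⁻¹ = ∏ m, pairVec ((u * v⁻¹) m) m i₀ := by
        simp only [pairVec, Finset.prod_mul_distrib, Finset.univ_prod_mulSingle]
        erw [← map_prod (MonoidHom.mulSingle (fun _ : κ => Fˣ) i₀) (fun m => ((u * v⁻¹) m)⁻¹),
          Finset.prod_inv_distrib, hdiff, inv_one, map_one, mul_one]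
      rw [← Subgroup.mem_comap, hsum]
      refine Subgroup.prod_mem _ fun m _ => ?_
      rw [Subgroup.mem_comap]
      obtain ⟨e, he⟩ : (u * v⁻¹) m ∈ Subgroup.zpowers a := (mul_mem hu (inv_mem hv)) m trivial
      rw [← he, show pairVec (a ^ e) m i₀ = pairVec a m i₀ ^ e by
        simp [pairVec, mul_zpow, ← Pi.mulSingle_zpow, _root_.inv_zpow], map_zpow]
      exact zpow_mem (Subgroup.subset_closure (k := X) (Or.inl ⟨m, i₀, rfl⟩)) e
    have := mul_mem hmem hz
    rwa [← mul_assoc, ← map_mul, inv_mul_cancel_right] at this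
  · rintro g (⟨i, l, rfl⟩ | ⟨τ, -, hτ, rfl⟩)
    · exact hpair_sq i l
    · have e : (diagEmb (c τ) * pm τ) ^ 2 = diagEmb (c τ * fun m => c τ (τ⁻¹ m)) := by
        rw [pow_two, show diagEmb (c τ) * pm τ * (diagEmb (c τ) * pm τ : GL (Fin 1 × κ) F) =
          diagEmb (c τ) * (pm τ * diagEmb (c τ) * (pm τ)⁻¹) * (pm τ * pm τ) by group, pm_conj_diagEmb,
          ← map_mul, ← map_mul, ← pow_two, hτ, map_one, mul_one]
      rw [e]
      simp only [c]
      split_ifs with h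
      · simp [show (fun _ : κ => (1 : Fˣ)) = 1 from rfl, one_mem]
      · have e2 : (fun m => (Pi.mulSingle i₀ (-1) : κ → Fˣ) (τ⁻¹ m)) = Pi.mulSingle (τ i₀) (-1) := by
          funext m; simp [Pi.mulSingle_apply, Equiv.symm_apply_eq]
        have e3 : pairVec a i₀ (τ i₀) ^ 2 ^ (k - 1) = Pi.mulSingle i₀ (-1) * Pi.mulSingle (τ i₀) (-1) := by
          rw [pairVec, mul_pow, ← Pi.mulSingle_pow, ← Pi.mulSingle_pow, inv_pow, ← hnegone, inv_neg_one]
        rw [e2, ← e3, map_pow, show 2 ^ (k - 1) = 2 * 2 ^ (k - 2) by rw [← pow_succ']; congr 1; omega, pow_mul]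
        exact pow_mem (hpair_sq _ _) _

theorem exists_sylow_monomial [Fintype F] (h4 : Fintype.card F % 4 = 1) {a : Fˣ}
    (ha : orderOf a = 2 ^ padicValNat 2 (Fintype.card F - 1)) (T : Sylow 2 (Perm κ)) :
    ∃ P : Sylow 2 (GL (Fin 1 × κ) F), (P : Subgroup (GL (Fin 1 × κ) F)) =
      wreath ((Subgroup.zpowers a).map (Matrix.GeneralLinearGroup.scalar (Fin 1))) (T : Subgroup (Perm κ)) := by
  refine exists_sylow_eq _ ?_
  have hinj : Function.Injective (Matrix.GeneralLinearGroup.scalar (R := F) (Fin 1)) := fun r s h =>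
    Units.ext (by simpa using congrArg (fun m : GL (Fin 1) F => (m : Matrix (Fin 1) (Fin 1) F) 0 0) h)
  rw [card_wreath, Subgroup.card_map_of_injective hinj, Nat.card_zpowers, ha,
    card_sylow_perm (Fintype.card κ) rfl T, ← pow_mul, ← pow_add,
    Nat.card_congr (glEquiv (F := F) ((Equiv.uniqueProd κ (Fin 1)).trans (Fintype.equivFin κ))).toEquiv,
    padic_two_gl_one h4]
  congr 1
  ring

end CfsgLib.SylowGLTwo
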